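import Mathlib
import Cfsg.Prelude.Def_Transfer
import Cfsg.Prelude.Def_Solvable
import Cfsg.Agent.Lib.H52.PCore
import Cfsg.Agent.Lib.H91.LargePair
import Cfsg.Agent.Lib.H36.ExtraInv
import Cfsg.Agent.Lib.H56.Heis

/-!
Large extraspecial 2-subgroups: orthogonality of singular involutions is symmetric, singular
subgroups (Smith 1978).
-/

set_option autoImplicit false

namespace H94.LargeExt

open Cfsg H91.LargePair
open scoped commutatorElement

variable {G : Type*} [Group G]

/-- `O_2(C(x))` -/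
abbrev QQ (x : G) : Subgroup G := pCoreOf 2 (Subgroup.centralizer ({x} : Set G))

theorem Q_eq {Q : G → Subgroup G}
    (hQ : ∀ x : G, Q x = (Cfsg.pCore 2 ↥(Subgroup.centralizer ({x} : Set G))).map (Subgroup.centralizer ({x} : Set G)).subtype) :
    Q = QQ := funext hQ

theorem mem_cent {x y : G} : y ∈ Subgroup.centralizer ({x} : Set G) ↔ y * x = x * y :=
  Subgroup.mem_centralizer_singleton_iff

theorem conj_le {H K : Subgroup G} (g : G) (h : ∀ x ∈ H, g * x * g⁻¹ ∈ K) :
    H.map (MulAut.conj g).toMonoidHom ≤ K := by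
  rintro _ ⟨x, hx, rfl⟩
  exact h x hx

theorem QQ_conj_le (g x : G) : (QQ x).map (MulAut.conj g).toMonoidHom ≤ QQ (g * x * g⁻¹) := by
  apply H52.PCore.le_pCoreOf
  · apply conj_le
    intro y hy
    have := mem_cent.1 (H52.PCore.pCoreOf_le _ hy)
    rw [mem_cent]
    calc g * y * g⁻¹ * (g * x * g⁻¹) = g * (y * x) * g⁻¹ := by group
      _ = g * (x * y) * g⁻¹ := by rw [this]
      _ = _ := by group
  · intro k hk
    rw [mem_cent] at hk
    have hk' : (g⁻¹ * k * g) ∈ Subgroup.centralizer ({x} : Set G) := by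
      rw [mem_cent]
      calc g⁻¹ * k * g * x = g⁻¹ * (k * (g * x * g⁻¹)) * g := by group
        _ = g⁻¹ * ((g * x * g⁻¹) * k) * g := by rw [hk]
        _ = _ := by group
    have h1 := H52.PCore.le_normalizer_pCoreOf (p := 2) _ hk'
    rw [Subgroup.mem_normalizer_iff] at h1 ⊢
    intro y
    rw [mem_map_conj, mem_map_conj]
    rw [h1 (g⁻¹ * y * g)]
    have : g⁻¹ * k * g * (g⁻¹ * y * g) * (g⁻¹ * k * g)⁻¹ = g⁻¹ * (k * y * k⁻¹) * g := by group
    rw [this]
  · exact (H52.PCore.isPGroup_pCoreOf _).map _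

theorem QQ_conj (g x : G) : QQ (g * x * g⁻¹) = (QQ x).map (MulAut.conj g).toMonoidHom := by
  apply le_antisymm _ (QQ_conj_le g x)
  intro y hy
  rw [mem_map_conj]
  have h1 := QQ_conj_le g⁻¹ (g * x * g⁻¹)
  have h2 : g⁻¹ * (g * x * g⁻¹) * g⁻¹⁻¹ = x := by group
  rw [h2] at h1
  apply h1
  rw [mem_map_conj]
  have : g⁻¹⁻¹ * (g⁻¹ * y * g) * g⁻¹ = y := by group
  rw [this]
  exact hy

theorem mem_QQ_conj {g x y : G} (h : y ∈ QQ x) : g * y * g⁻¹ ∈ QQ (g * x * g⁻¹) :=
  QQ_conj_le g x ⟨y, h, rfl⟩

/-- the setting -/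
structure Setting (z : G) : Prop where
  ord : orderOf z = 2
  ext : Cfsg.IsExtraspecial 2 ↥(QQ z)
  cen : Subgroup.centralizer ((QQ z : Subgroup G) : Set G) ≤ QQ z

variable [Finite G]

theorem self_mem {z : G} (hz : orderOf z = 2) : z ∈ QQ z := by
  have h : Subgroup.zpowers z ≤ QQ z := by
    apply H52.PCore.le_pCoreOf
    · rw [Subgroup.zpowers_le, mem_cent]
    · intro k hk
      rw [mem_cent] at hk
      rw [Subgroup.mem_normalizer_iff]
      intro y
      have hc : Commute k z := hk
      constructor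
      · intro hy
        obtain ⟨j, rfl⟩ := Subgroup.mem_zpowers_iff.1 hy
        have : k * z ^ j * k⁻¹ = z ^ j := by rw [(hc.zpow_right j).eq]; group
        rw [this]; exact hy
      · intro hy
        obtain ⟨j, hj⟩ := Subgroup.mem_zpowers_iff.1 hy
        have : y = z ^ j := by
          calc y = k⁻¹ * (k * y * k⁻¹) * k := by group
            _ = k⁻¹ * z ^ j * k := by rw [← hj]
            _ = k⁻¹ * (z ^ j * k) := by group
            _ = k⁻¹ * (k * z ^ j) := by rw [(hc.zpow_right j).eq]
            _ = z ^ j := by group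
        rw [this]; exact Subgroup.zpow_mem _ (Subgroup.mem_zpowers z) j
    · apply IsPGroup.of_card (n := 1)
      rw [Nat.card_zpowers, hz, pow_one]
  exact h (Subgroup.mem_zpowers z)

theorem Setting.pack {z : G} (h : Setting z) : Pack (QQ z) z := by
  obtain ⟨z', hzQ, hz1, hzz, hZz, hmem, hzc, hcen, hcomm, hsq⟩ := H91.LargeExtra.exists_z h.ext
  have hz := self_mem h.ord
  have hz1' : z ≠ 1 := by
    rintro rfl
    have := h.ord
    simp at this
  have hcomz : ∀ q ∈ QQ z, q * z = z * q := fun q hq => mem_cent.1 (H52.PCore.pCoreOf_le _ hq)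
  have hzz' : z = z' := by
    rcases hcen z hz hcomz with h' | h'
    · exact absurd h' hz1'
    · exact h'
  subst hzz'
  refine ⟨hzQ, hz1, hzz, hzc, hcen, hcomm, hsq, ?_, ?_⟩
  · intro x hx
    apply hcen x _ hx
    apply h.cen
    rw [Subgroup.mem_centralizer_iff]
    exact hx
  · intro c hc q hq
    exact (Subgroup.mem_normalizer_iff.1 (H52.PCore.le_normalizer_pCoreOf (p := 2) _ (mem_cent.2 hc)) q).1 hq

theorem Setting.packs {z : G} (h : Setting z) {s : G} (hs : ∃ g : G, g * z * g⁻¹ = s) : Pack (QQ s) s := by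
  obtain ⟨g, rfl⟩ := hs
  rw [QQ_conj]
  exact h.pack.conj g

theorem Setting.exts {z : G} (h : Setting z) {s : G} (hs : ∃ g : G, g * z * g⁻¹ = s) :
    Cfsg.IsExtraspecial 2 ↥(QQ s) := by
  obtain ⟨g, rfl⟩ := hs
  rw [QQ_conj]
  have : Fact (Nat.Prime 2) := ⟨Nat.prime_two⟩
  exact H56.Heis.isExtraspecial_congr
    ((QQ z).equivMapOfInjective (MulAut.conj g).toMonoidHom (MulAut.conj g).injective) h.ext

/-- the case `|Q| ≤ 8` -/
theorem key8 {Q Q1 : Subgroup G} {z s : G} (h : Pack Q z) (h1 : Pack Q1 s)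
    (hconj : ∀ k, k * z * k⁻¹ = s → ∀ q ∈ Q, k * q * k⁻¹ ∈ Q1)
    (hsQ : s ∈ Q) (hsz : s ≠ z) (hcard : Nat.card Q ≤ 8) (hcard1 : 4 ≤ Nat.card Q1) : z ∈ Q1 := by
  classical
  obtain ⟨t, ht, hts⟩ := h.exists_shift hsQ h1.z1 hsz
  have hzs : s * z = z * s := h.zc s hsQ
  have hsi : s⁻¹ = s := inv_eq_of_mul_eq_one_left h1.zz
  have hzi : z⁻¹ = z := inv_eq_of_mul_eq_one_left h.zz
  by_cases hy : ∃ y ∈ Q1, y * z * y⁻¹ = z * s
  · obtain ⟨y, hy, hyz⟩ := hy
    have hys : y * s = s * y := h1.zc y hy
    have htz : t * z = z * t := h.zc t ht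
    have e1 : (t * y * t) * z * (t * y * t)⁻¹ = s := by
      calc (t * y * t) * z * (t * y * t)⁻¹ = t * (y * (t * z * t⁻¹) * y⁻¹) * t⁻¹ := by group
        _ = t * (y * z * y⁻¹) * t⁻¹ := by rw [htz]; group
        _ = t * (z * s) * t⁻¹ := by rw [hyz]
        _ = (t * z) * s * t⁻¹ := by group
        _ = z * (t * s * t⁻¹) := by rw [htz]; group
        _ = (z * z) * s := by rw [hts]; group
        _ = s := by rw [h.zz, one_mul]
    have e2 : (t * y * t) * s * (t * y * t)⁻¹ = z := by
      calc (t * y * t) * s * (t * y * t)⁻¹ = t * (y * (t * s * t⁻¹) * y⁻¹) * t⁻¹ := by group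
        _ = t * (y * (z * s) * y⁻¹) * t⁻¹ := by rw [hts]
        _ = t * (y * z * y⁻¹ * (y * s * y⁻¹)) * t⁻¹ := by group
        _ = t * (z * s * (y * s * y⁻¹)) * t⁻¹ := by rw [hyz]
        _ = t * (z * (s * s)) * t⁻¹ := by rw [hys]; group
        _ = (t * z) * t⁻¹ := by rw [h1.zz, mul_one]
        _ = z := by rw [htz]; group
    rw [← e2]
    exact hconj _ e1 s hsQ
  · push Not at hy
    by_contra hzQ1
    have hii : ∀ y ∈ Q1, (z * y * z⁻¹ * y⁻¹ = 1 ∨ z * y * z⁻¹ * y⁻¹ = s) → z * y = y * z := by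
      intro y hyQ hc
      rcases hc with hc | hc
      · rw [mul_inv_eq_one, mul_inv_eq_iff_eq_mul] at hc; exact hc
      · exfalso
        apply hy y hyQ
        rw [mul_inv_eq_iff_eq_mul, mul_inv_eq_iff_eq_mul] at hc
        have hys : y * s = s * y := h1.zc y hyQ
        calc y * z * y⁻¹ = s⁻¹ * (s * y * z) * y⁻¹ := by group
          _ = s⁻¹ * (z * y) * y⁻¹ := by rw [hc]
          _ = s * z := by rw [hsi]; group
          _ = z * s := hzs
    have hzs' : z * s = s * z := hzs.symm
    have hts2 : t * s = z * s * t := by rw [← hts]; group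
    have hsz1 : s * z ≠ 1 := by
      intro h'; apply hsz; rw [mul_eq_one_iff_eq_inv, hzi] at h'; exact h'
    -- every `q ∈ C_Q(s)` is in `V`
    have hV : ∀ q ∈ Q, q * s = s * q → q = 1 ∨ q = z ∨ q = s ∨ q = s * z := by
      intro q hq hqs
      by_contra hcon
      let A : Subgroup G := Q ⊓ Subgroup.centralizer ({s} : Set G)
      let V : Subgroup G := Q ⊓ Subgroup.centralizer (A : Set G)
      have hVmem : ∀ x, x ∈ V ↔ x = 1 ∨ x = z ∨ x = s ∨ x = s * z := by
        intro x
        constructor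
        · rintro ⟨hx1, hx2⟩
          apply h.double_cen hsQ h1.z1 hsz hx1
          intro a ha has
          exact (Subgroup.mem_centralizer_iff.1 hx2) a ⟨ha, mem_cent.2 has⟩
        · have h5 : ∀ a ∈ A, a * s = s * a ∧ a * z = z * a := fun a ha =>
            ⟨mem_cent.1 ha.2, h.zc a ha.1⟩
          rintro (rfl | rfl | rfl | rfl)
          · exact V.one_mem
          · exact ⟨h.zQ, Subgroup.mem_centralizer_iff.2 fun a ha => (h5 a ha).2⟩
          · exact ⟨hsQ, Subgroup.mem_centralizer_iff.2 fun a ha => (h5 a ha).1⟩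
          · exact V.mul_mem ⟨hsQ, Subgroup.mem_centralizer_iff.2 fun a ha => (h5 a ha).1⟩
              ⟨h.zQ, Subgroup.mem_centralizer_iff.2 fun a ha => (h5 a ha).2⟩
      have hVA : V ≤ A := by
        intro x hx
        refine ⟨hx.1, mem_cent.2 ?_⟩
        rcases (hVmem x).1 hx with rfl | rfl | rfl | rfl
        · simp
        · exact hzs'
        · rfl
        · rw [mul_assoc, hzs', ← mul_assoc]
      have hcV : Nat.card V = 4 := by
        have e1 : (V : Set G) = (({1, z, s, s * z} : Finset G) : Set G) := by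
          ext x
          rw [SetLike.mem_coe, hVmem]
          simp
        have e2 : Nat.card V = (V : Set G).ncard := rfl
        rw [e2, e1, Set.ncard_coe_finset, Finset.card_insert_of_notMem, Finset.card_insert_of_notMem,
          Finset.card_insert_of_notMem, Finset.card_singleton]
        · simp only [Finset.mem_singleton]
          intro h'; apply h.z1; simpa using h'.symm
        · simp only [Finset.mem_insert, Finset.mem_singleton, not_or]
          refine ⟨fun h' => hsz h'.symm, fun h' => h1.z1 ?_⟩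
          simpa using h'.symm
        · simp only [Finset.mem_insert, Finset.mem_singleton, not_or]
          exact ⟨fun h' => h.z1 h'.symm, fun h' => h1.z1 h'.symm, fun h' => hsz1 h'.symm⟩
      have hqA : q ∈ A := ⟨hq, mem_cent.2 hqs⟩
      have hqV : q ∉ V := fun h' => hcon ((hVmem q).1 h')
      have hdvd : Nat.card V ∣ Nat.card A := Subgroup.card_dvd_of_le hVA
      have hlt : Nat.card V < Nat.card A := by
        apply lt_of_le_of_ne (Nat.le_of_dvd Nat.card_pos hdvd)
        intro he
        apply hqV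
        rw [Subgroup.eq_of_le_of_card_ge hVA he.symm.le]
        exact hqA
      have hA8 : 8 ≤ Nat.card A := by
        obtain ⟨k, hk⟩ := hdvd
        rw [hcV] at hk hlt
        have : 2 ≤ k := by
          by_contra h'
          have : k ≤ 1 := by omega
          omega
        omega
      have hAQ : A = Q := Subgroup.eq_of_le_of_card_ge inf_le_left (hcard.trans hA8)
      have htA : t ∈ A := by rw [hAQ]; exact ht
      have := mem_cent.1 htA.2
      apply h.z1
      rw [hts2] at this
      have h6 : z * (s * t) = 1 * (s * t) := by rw [one_mul, ← mul_assoc]; exact this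
      exact mul_right_cancel h6
    have htsq : ∀ w, (w = s ∨ w = s * z) → (t * w) * (t * w) = z * (t * t) := by
      have e1 : (t * s) * (t * s) = z * (t * t) := by
        calc (t * s) * (t * s) = (t * s) * t * s := by group
          _ = z * s * t * t * s := by rw [hts2]
          _ = z * s * (t * t) * s := by group
          _ = z * (t * t) * (s * s) := by
            rcases h.sq t ht with h' | h'
            · rw [h']; group
            · rw [h']
              calc z * s * z * s = z * (s * z) * s := by group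
                _ = z * (z * s) * s := by rw [hzs]
                _ = _ := by group
          _ = z * (t * t) := by rw [h1.zz, mul_one]
      rintro w (rfl | rfl)
      · exact e1
      · have htz : t * z = z * t := h.zc t ht
        calc t * (s * z) * (t * (s * z)) = t * s * (z * t) * s * z := by group
          _ = t * s * (t * z) * s * z := by rw [htz]
          _ = (t * s * t) * (z * s) * z := by group
          _ = (t * s * t) * (s * z) * z := by rw [hzs]
          _ = (t * s) * (t * s) * (z * z) := by group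
          _ = z * (t * t) := by rw [h.zz, mul_one, e1]
    have hdec : ∀ q ∈ Q, q * s = s * q ∨ (t⁻¹ * q) * s = s * (t⁻¹ * q) := by
      intro q hq
      rcases h.comm q hq s hsQ with h' | h'
      · left
        rw [mul_inv_eq_one, mul_inv_eq_iff_eq_mul] at h'
        exact h'
      · right
        rw [mul_inv_eq_iff_eq_mul, mul_inv_eq_iff_eq_mul] at h'
        have h3 : t⁻¹ * (z * s) = s * t⁻¹ := by
          rw [← hts]; group
        calc t⁻¹ * q * s = t⁻¹ * (q * s) := by group
          _ = t⁻¹ * (z * s) * q := by rw [h']; group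
          _ = s * (t⁻¹ * q) := by rw [h3]; group
    -- elements centralising `s, z, t`
    have hCQ : ∀ r, r * s = s * r → r * z = z * r → r * t = t * r → r = 1 ∨ r = z := by
      intro r hrs hrz hrt
      apply h.C
      have hrV : ∀ q, (q = 1 ∨ q = z ∨ q = s ∨ q = s * z) → q * r = r * q := by
        rintro q (rfl | rfl | rfl | rfl)
        · simp
        · exact hrz.symm
        · exact hrs.symm
        · rw [mul_assoc, ← hrz, ← mul_assoc, ← hrs, mul_assoc]
      intro q hq
      rcases hdec q hq with h' | h'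
      · exact hrV q (hV q hq h')
      · have h7 := hrV _ (hV _ (Q.mul_mem (Q.inv_mem ht) hq) h')
        calc q * r = t * ((t⁻¹ * q) * r) := by group
          _ = t * (r * (t⁻¹ * q)) := by rw [h7]
          _ = (t * r) * (t⁻¹ * q) := by group
          _ = (r * t) * (t⁻¹ * q) := by rw [hrt]
          _ = r * q := by group
    -- `C_{Q1}(z) = {1, s}`
    have hR : ∀ r ∈ Q1, z * r = r * z → r = 1 ∨ r = s := by
      intro r hr hrz
      have hrs : r * s = s * r := h1.zc r hr
      have hrtQ : r * t * r⁻¹ ∈ Q := h.N r hrz.symm t ht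
      have e1 : (t⁻¹ * (r * t * r⁻¹)) * s = s * (t⁻¹ * (r * t * r⁻¹)) := by
        have h3 : t⁻¹ * (z * s) = s * t⁻¹ := by
          rw [← hts]; group
        have h4 : r * t * r⁻¹ * s = (z * s) * (r * t * r⁻¹) := by
          calc r * t * r⁻¹ * s = r * t * (r⁻¹ * s * r) * r⁻¹ := by group
            _ = r * t * (r⁻¹ * (s * r)) * r⁻¹ := by group
            _ = r * t * (r⁻¹ * (r * s)) * r⁻¹ := by rw [hrs]
            _ = r * (t * s) * r⁻¹ := by group
            _ = r * (z * s * t) * r⁻¹ := by rw [hts2]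
            _ = (r * z) * s * t * r⁻¹ := by group
            _ = (z * r) * s * t * r⁻¹ := by rw [hrz]
            _ = z * (r * s) * t * r⁻¹ := by group
            _ = z * (s * r) * t * r⁻¹ := by rw [hrs]
            _ = _ := by group
        calc t⁻¹ * (r * t * r⁻¹) * s = t⁻¹ * (r * t * r⁻¹ * s) := by group
          _ = t⁻¹ * (z * s) * (r * t * r⁻¹) := by rw [h4]; group
          _ = _ := by rw [h3]; group
      have hbad : ∀ w, (w = s ∨ w = s * z) → t⁻¹ * (r * t * r⁻¹) ≠ w := by
        intro w hw hcon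
        have e2 : r * t * r⁻¹ = t * w := by rw [← hcon]; group
        have e3 := htsq w hw
        rw [← e2] at e3
        have e4 : r * t * r⁻¹ * (r * t * r⁻¹) = t * t := by
          have : r * (t * t) = (t * t) * r := by
            rcases h.sq t ht with h' | h'
            · rw [h']; group
            · rw [h', hrz]
          calc r * t * r⁻¹ * (r * t * r⁻¹) = (r * (t * t)) * r⁻¹ := by group
            _ = t * t * r * r⁻¹ := by rw [this]
            _ = _ := by group
        rw [e4] at e3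
        apply h.z1
        have : 1 * (t * t) = z * (t * t) := by rw [one_mul]; exact e3
        exact (mul_right_cancel this).symm
      rcases hV _ (Q.mul_mem (Q.inv_mem ht) hrtQ) e1 with h' | h' | h' | h'
      · have hrt : r * t = t * r := by
          rw [inv_mul_eq_one] at h'
          calc r * t = (r * t * r⁻¹) * r := by group
            _ = t * r := by rw [← h']
        rcases hCQ r hrs hrz.symm hrt with h8 | h8
        · exact Or.inl h8
        · exact absurd (h8 ▸ hr) hzQ1
      · right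
        have hrt : r * t = t * z * r := by
          rw [inv_mul_eq_iff_eq_mul] at h'
          calc r * t = (r * t * r⁻¹) * r := by group
            _ = t * z * r := by rw [h']
        have h9 : (s * r) * t = t * (s * r) := by
          calc (s * r) * t = s * (r * t) := by group
            _ = s * (t * z * r) := by rw [hrt]
            _ = s * (t * z) * r := by group
            _ = s * (z * t) * r := by rw [h.zc t ht]
            _ = (s * z) * t * r := by group
            _ = (z * s * t) * r := by rw [hzs]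
            _ = (t * s) * r := by rw [hts2]
            _ = _ := by group
        have h10 := hCQ (s * r) (by rw [mul_assoc, hrs]) (by rw [mul_assoc, ← hrz, ← mul_assoc, hzs, mul_assoc]) h9
        have h11 : r = s * (s * r) := by rw [← mul_assoc, h1.zz, one_mul]
        rcases h10 with h8 | h8
        · rw [h11, h8, mul_one]
        · exfalso
          apply hzQ1
          rw [← h8]
          exact Q1.mul_mem h1.zQ hr
      · exact absurd h' (hbad _ (Or.inl rfl))
      · exact absurd h' (hbad _ (Or.inr rfl))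
    obtain ⟨y, hyQ, hy1, hys⟩ : ∃ y ∈ Q1, y ≠ 1 ∧ y ≠ s := by
      by_contra hcon
      push Not at hcon
      have hsub : (Q1 : Set G) ⊆ (({1, s} : Finset G) : Set G) := by
        intro x hx
        by_cases hx1 : x = 1
        · simp [hx1]
        · simp [hcon x hx hx1]
      have h1' : Nat.card Q1 = (Q1 : Set G).ncard := rfl
      rw [h1'] at hcard1
      have h2' := Set.ncard_le_ncard hsub (Finset.finite_toSet _)
      rw [Set.ncard_coe_finset] at h2'
      have h3' := Finset.card_insert_le (1 : G) {s}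
      rw [Finset.card_singleton] at h3'
      omega
    have hmul : ∀ c c' : G, (c = 1 ∨ c = s) → (c' = 1 ∨ c' = s) → (c * c' = 1 ∨ c * c' = s) := by
      rintro c c' (rfl | rfl) (rfl | rfl)
      · left; simp
      · right; simp
      · right; simp
      · left; exact h1.zz
    have hy1Q : z * y * z⁻¹ ∈ Q1 := h1.N z hzs' y hyQ
    have hyz : ¬ (z * y = y * z) := by
      intro h'
      rcases hR y hyQ h' with h8 | h8
      · exact hy1 h8
      · exact hys h8
    have hw : z * (y * (z * y * z⁻¹)) = (y * (z * y * z⁻¹)) * z := by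
      apply hii _ (Q1.mul_mem hyQ hy1Q)
      have : z * (y * (z * y * z⁻¹)) * z⁻¹ * (y * (z * y * z⁻¹))⁻¹ =
          (z * y * z⁻¹) * (z * z * y * z⁻¹ * z⁻¹) * (z * y * z⁻¹)⁻¹ * y⁻¹ := by group
      rw [this, h.zz]
      have h5 : (1 : G) * y * z⁻¹ * z⁻¹ = y := by
        calc (1 : G) * y * z⁻¹ * z⁻¹ = y * (z * z)⁻¹ := by group
          _ = y := by rw [h.zz]; group
      rw [h5]
      exact h1.comm _ hy1Q y hyQ
    have hw2 := hR _ (Q1.mul_mem hyQ hy1Q) hw
    apply hyz
    apply hii y hyQ
    have e1 : z * y * z⁻¹ * y⁻¹ = y⁻¹ * (y * (z * y * z⁻¹)) * y⁻¹ := by group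
    rw [e1]
    have e2 : y⁻¹ * (y * (z * y * z⁻¹)) * y⁻¹ = (y * (z * y * z⁻¹)) * (y * y)⁻¹ := by
      have e3 : y⁻¹ * (y * (z * y * z⁻¹)) = (y * (z * y * z⁻¹)) * y⁻¹ := by
        rcases hw2 with h' | h'
        · rw [h']; group
        · rw [h']
          have := h1.zc y⁻¹ (Q1.inv_mem hyQ)
          exact this
      rw [e3]; group
    rw [e2]
    apply hmul _ _ hw2
    rcases h1.sq y hyQ with h' | h'
    · left; rw [h', inv_one]
    · right; rw [h', hsi]

/-- orthogonality is symmetric -/
theorem Setting.symm {z : G} (h : Setting z) (g : G) (hx : g * z * g⁻¹ ∈ QQ z) :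
    z ∈ QQ (g * z * g⁻¹) := by
  by_cases hsz : g * z * g⁻¹ = z
  · rw [hsz]; exact h.pack.zQ
  · have h1 : Pack (QQ (g * z * g⁻¹)) (g * z * g⁻¹) := h.packs ⟨g, rfl⟩
    have hconj : ∀ k, k * z * k⁻¹ = g * z * g⁻¹ → ∀ q ∈ QQ z, k * q * k⁻¹ ∈ QQ (g * z * g⁻¹) := by
      intro k hk q hq
      rw [← hk]
      exact mem_QQ_conj hq
    by_cases hcard : 8 < Nat.card (QQ z)
    · exact key h.pack h1 hconj hx hsz hcard
    · push Not at hcard
      apply key8 h.pack h1 hconj hx hsz hcard
      -- card of an extraspecial group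
      have : Fact (Nat.Prime 2) := ⟨Nat.prime_two⟩
      obtain ⟨n, hn, hc⟩ := H3.Extraspecial.card_eq_of_isExtraspecial (h.exts ⟨g, rfl⟩)
      rw [hc]
      calc 4 = 2 ^ 2 := by norm_num
        _ ≤ 2 ^ (2 * n + 1) := Nat.pow_le_pow_right (by norm_num) (by omega)

/-! ### singular subgroups -/

/-- hypotheses on a singular subgroup -/
structure Sing (z : G) (U : Subgroup G) : Prop where
  set : Setting z
  inv : ∀ u ∈ U, u * u = 1
  conj : ∀ u ∈ U, u ≠ 1 → ∃ g : G, g * z * g⁻¹ = u
  orth : ∀ u ∈ U, ∀ v ∈ U, u ≠ 1 → v ≠ 1 → v ∈ QQ u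

theorem Sing.pack {z : G} {U : Subgroup G} (h : Sing z U) {u : G} (hu : u ∈ U) (hu1 : u ≠ 1) :
    Pack (QQ u) u := h.set.packs (h.conj u hu hu1)

theorem Sing.le {z : G} {U : Subgroup G} (h : Sing z U) {u : G} (hu : u ∈ U) (hu1 : u ≠ 1) : U ≤ QQ u := by
  intro v hv
  by_cases hv1 : v = 1
  · rw [hv1]; exact Subgroup.one_mem _
  · exact h.orth u hu v hv hu1 hv1

/-- `C_{Q_u}(D)` acts on elements outside `D` -/
theorem Setting.exists_act {z : G} (h : Setting z) {u : G} (hu : ∃ g : G, g * z * g⁻¹ = u)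
    {D : Subgroup G} (hD : D ≤ QQ u) (huD : u ∈ D) {x : G} (hx : x ∈ QQ u) (hxD : x ∉ D) :
    ∃ g ∈ QQ u, (∀ d ∈ D, g * d = d * g) ∧ g * x * g⁻¹ = u * x := by
  have hp := h.packs hu
  have hE := h.exts hu
  have hc : Subgroup.center ↥(QQ u) ≤ D.subgroupOf (QQ u) := by
    intro c hc
    rw [Subgroup.mem_subgroupOf]
    have h1 := hp.cen c.1 c.2 (fun q hq => by
      have := Subgroup.mem_center_iff.1 hc ⟨q, hq⟩
      exact congrArg Subtype.val this)
    rcases h1 with h1 | h1
    · rw [h1]; exact D.one_mem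
    · rw [h1]; exact huD
  have hx' : (⟨x, hx⟩ : ↥(QQ u)) ∉ D.subgroupOf (QQ u) := by
    rw [Subgroup.mem_subgroupOf]; exact hxD
  obtain ⟨e, he1, he2⟩ := H36.ExtraInv.exists_hom hE hc hx'
  refine ⟨e, e.2, ?_, ?_⟩
  · intro d hd
    have h3 := he1 ⟨d, hD hd⟩ (Subgroup.mem_subgroupOf.2 hd)
    rw [commutatorElement_eq_one_iff_mul_comm] at h3
    exact congrArg Subtype.val h3
  · rcases hp.comm e.1 e.2 x hx with h4 | h4
    · exfalso
      apply he2
      apply Subtype.ext
      exact h4
    · rw [mul_inv_eq_iff_eq_mul] at h4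
      exact h4

theorem Sing.norm {z : G} {U : Subgroup G} (h : Sing z U) {u : G} (hu : u ∈ U) (hu1 : u ≠ 1) {g : G} (hg : g ∈ QQ u)
    {v : G} (hv : v ∈ U) : g * v * g⁻¹ = v ∨ g * v * g⁻¹ = u * v := by
  rcases (h.pack hu hu1).comm g hg v (h.le hu hu1 hv) with h' | h'
  · left; rwa [mul_inv_eq_one] at h'
  · right; rwa [mul_inv_eq_iff_eq_mul] at h'

theorem Sing.normalizer {z : G} {U : Subgroup G} (h : Sing z U) {u : G} (hu : u ∈ U) (hu1 : u ≠ 1) :
    QQ u ≤ Subgroup.normalizer (U : Set G) := by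
  have key : ∀ g ∈ QQ u, ∀ v ∈ U, g * v * g⁻¹ ∈ U := by
    intro g hg v hv
    rcases h.norm hu hu1 hg hv with h' | h' <;> rw [h']
    · exact hv
    · exact U.mul_mem hu hv
  intro g hg
  rw [Subgroup.mem_normalizer_iff]
  intro v
  refine ⟨key g hg v, fun hv => ?_⟩
  have := key g⁻¹ ((QQ u).inv_mem hg) _ hv
  have e : g⁻¹ * (g * v * g⁻¹) * g⁻¹⁻¹ = v := by group
  rwa [e] at this

/-- generic join -/
abbrev LUof (U : Subgroup G) : Subgroup G := ⨆ u ∈ ((U : Set G) \ {1}), QQ u
/-- generic meet -/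
abbrev QUof (U : Subgroup G) : Subgroup G := ⨅ u ∈ ((U : Set G) \ {1}), QQ u

theorem mem_QUof {U : Subgroup G} {x : G} : x ∈ QUof U ↔ ∀ u ∈ U, u ≠ 1 → x ∈ QQ u := by
  simp only [Subgroup.mem_iInf, Set.mem_sdiff, SetLike.mem_coe, Set.mem_singleton_iff]
  constructor
  · intro h u hu hu1; exact h u ⟨hu, hu1⟩
  · intro h u hu; exact h u hu.1 hu.2

theorem le_LUof {U : Subgroup G} {u : G} (hu : u ∈ U) (hu1 : u ≠ 1) : QQ u ≤ LUof U :=
  le_iSup₂_of_le u ⟨hu, hu1⟩ le_rfl

theorem Sing.LU_le {z : G} {U : Subgroup G} (h : Sing z U) : LUof U ≤ Subgroup.normalizer (U : Set G) :=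
  iSup₂_le fun _ hu => h.normalizer hu.1 hu.2

theorem Sing.U_le_QU {z : G} {U : Subgroup G} (h : Sing z U) : U ≤ QUof U := by
  intro x hx
  rw [mem_QUof]
  intro u hu hu1
  exact h.le hu hu1 hx

theorem QU_le_LU {U : Subgroup G} (hU : ∃ u ∈ U, u ≠ 1) : QUof U ≤ LUof U := by
  obtain ⟨u, hu, hu1⟩ := hU
  intro x hx
  exact le_LUof hu hu1 (mem_QUof.1 hx u hu hu1)

/-- the automorphisms induced by `LU` -/
def indA {z : G} {U : Subgroup G} (h : Sing z U) : Subgroup (MulAut U) where
  carrier := {φ | ∃ g ∈ LUof U, ∀ u : U, g * (u : G) * g⁻¹ = ((φ u : U) : G)}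
  one_mem' := ⟨1, Subgroup.one_mem _, fun u => by simp⟩
  mul_mem' := by
    rintro φ ψ ⟨g, hg, hgu⟩ ⟨k, hk, hku⟩
    refine ⟨g * k, Subgroup.mul_mem _ hg hk, fun u => ?_⟩
    rw [MulAut.mul_apply, ← hgu, ← hku]
    group
  inv_mem' := by
    rintro φ ⟨g, hg, hgu⟩
    refine ⟨g⁻¹, Subgroup.inv_mem _ hg, fun u => ?_⟩
    have := hgu (φ⁻¹ u)
    rw [MulAut.apply_inv_self] at this
    rw [← this]
    group

theorem mem_indA {z : G} {U : Subgroup G} (h : Sing z U) (φ : MulAut U) :
    φ ∈ indA h ↔ ∃ g ∈ LUof U, ∀ u : U, g * (u : G) * g⁻¹ = ((φ u : U) : G) := Iff.rfl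

/-- an element of `LU` gives an automorphism -/
theorem exists_aut {z : G} {U : Subgroup G} (h : Sing z U) {g : G} (hg : g ∈ LUof U) :
    ∃ φ ∈ indA h, ∀ u : U, g * (u : G) * g⁻¹ = ((φ u : U) : G) := by
  have hn := Subgroup.mem_normalizer_iff.1 (h.LU_le hg)
  refine ⟨⟨⟨fun u => ⟨g * u * g⁻¹, (hn u).1 u.2⟩, fun u => ⟨g⁻¹ * u * g, ?_⟩, ?_, ?_⟩, ?_⟩, ⟨g, hg, fun u => rfl⟩, fun u => rfl⟩
  · have := (hn (g⁻¹ * u * g)).2
    apply this
    have e : g * (g⁻¹ * u * g) * g⁻¹ = u := by group
    rw [e]; exact u.2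
  · intro u
    apply Subtype.ext
    show g⁻¹ * (g * u * g⁻¹) * g = u
    group
  · intro u
    apply Subtype.ext
    show g * (g⁻¹ * u * g) * g⁻¹ = u
    group
  · intro u v
    apply Subtype.ext
    show g * (u * v) * g⁻¹ = (g * u * g⁻¹) * (g * v * g⁻¹)
    group

/-- the fixed points of an automorphism -/
def fixU {U : Subgroup G} (φ : MulAut U) : Subgroup U where
  carrier := {u | φ u = u}
  one_mem' := map_one φ
  mul_mem' := by
    intro a b ha hb
    show φ (a * b) = a * b
    rw [map_mul, show φ a = a from ha, show φ b = b from hb]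
  inv_mem' := by
    intro a ha
    show φ a⁻¹ = a⁻¹
    rw [map_inv, show φ a = a from ha]

theorem Sing.comm {z : G} {U : Subgroup G} (h : Sing z U) {u v : G} (hu : u ∈ U) (hv : v ∈ U) : u * v = v * u := by
  have h1 := h.inv _ (U.mul_mem hu hv)
  have h2 := h.inv u hu
  have h3 := h.inv v hv
  have hui : u⁻¹ = u := inv_eq_of_mul_eq_one_left h2
  have hvi : v⁻¹ = v := inv_eq_of_mul_eq_one_left h3
  have := inv_eq_of_mul_eq_one_left h1
  rw [mul_inv_rev, hui, hvi] at this
  exact this.symm

theorem Sing.induce {z : G} {U : Subgroup G} (h : Sing z U) : ∀ (k : ℕ) (φ : MulAut U),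
    Nat.card U ≤ Nat.card (fixU φ) + k → φ ∈ indA h := by
  intro k
  induction k with
  | zero =>
    intro φ hk
    have : fixU φ = ⊤ := by
      apply Subgroup.eq_top_of_le_card
      simpa using hk
    have h1 : φ = 1 := by
      ext u
      have : u ∈ fixU φ := by rw [this]; trivial
      exact congrArg Subtype.val this
    rw [h1]
    exact Subgroup.one_mem _
  | succ k ih =>
    intro φ hk
    by_cases hφ : ∀ u, φ u = u
    · have h1 : φ = 1 := by
        ext u
        exact congrArg Subtype.val (hφ u)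
      rw [h1]
      exact Subgroup.one_mem _
    · push Not at hφ
      obtain ⟨v, hv⟩ := hφ
      -- `w = φ v`, `a = v w`
      obtain ⟨w, hw⟩ : ∃ w, w = φ v := ⟨_, rfl⟩
      obtain ⟨a, ha⟩ : ∃ a : U, a = v * w := ⟨_, rfl⟩
      have hUsq : ∀ u : U, u * u = 1 := fun u => Subtype.ext (h.inv u u.2)
      have hUc : ∀ u u' : U, u * u' = u' * u := fun u u' => Subtype.ext (h.comm u.2 u'.2)
      have ha1 : a ≠ 1 := by
        intro h'
        apply hv
        rw [ha, mul_eq_one_iff_eq_inv] at h'
        rw [← hw, h', inv_eq_of_mul_eq_one_left (hUsq w)]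
      have ha1' : (a : G) ≠ 1 := fun h' => ha1 (Subtype.ext h')
      have hvF : v ∉ fixU φ := hv
      have hwF : w ∉ fixU φ := by
        intro h'
        apply hv
        apply φ.injective
        rw [← hw]
        exact h'
      -- `D = Fix φ ⊔ ⟨a⟩`
      obtain ⟨D, hD⟩ : ∃ D : Subgroup U, ∀ x, x ∈ D ↔ (x ∈ fixU φ ∨ a * x ∈ fixU φ) := by
        refine ⟨⟨⟨⟨{x | x ∈ fixU φ ∨ a * x ∈ fixU φ}, ?_⟩, ?_⟩, ?_⟩, fun x => Iff.rfl⟩
        · rintro x y (hx | hx) (hy | hy)
          · left; exact Subgroup.mul_mem _ hx hy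
          · right
            have := Subgroup.mul_mem _ hx hy
            have e : x * (a * y) = a * (x * y) := by rw [← mul_assoc, hUc x a, mul_assoc]
            rwa [e] at this
          · right
            have := Subgroup.mul_mem _ hx hy
            rwa [mul_assoc] at this
          · left
            have := Subgroup.mul_mem _ hx hy
            have e : a * x * (a * y) = x * y := by
              calc a * x * (a * y) = (a * x) * a * y := by group
                _ = (x * a) * a * y := by rw [hUc a x]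
                _ = x * (a * a) * y := by group
                _ = x * y := by rw [hUsq, mul_one]
            rwa [e] at this
        · left; exact Subgroup.one_mem _
        · intro x hx
          have : x⁻¹ = x := inv_eq_of_mul_eq_one_left (hUsq x)
          rw [this]; exact hx
      have hvD : v ∉ D := by
        rw [hD]
        rintro (h' | h')
        · exact hvF h'
        · apply hwF
          rw [ha] at h'
          have e : v * w * v = w := by rw [hUc v w, mul_assoc, hUsq, mul_one]
          rwa [e] at h'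
      have haD : a ∈ D := by rw [hD]; right; rw [hUsq]; exact Subgroup.one_mem _
      have hwD : w ∉ D := by
        intro h'
        apply hvD
        have := D.mul_mem haD h'
        rwa [ha, mul_assoc, hUsq, mul_one] at this
      obtain ⟨g, hg, hgD, hgw⟩ := h.set.exists_act (h.conj a a.2 ha1') (D := D.map U.subtype)
        ((Subgroup.map_subtype_le D).trans (h.le a.2 ha1')) ⟨a, haD, rfl⟩ (h.le a.2 ha1' w.2)
        (by rintro ⟨y, hy, hyw⟩
            apply hwD
            have : y = w := Subtype.ext hyw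
            rwa [this] at hy)
      obtain ⟨τ, hτ, hτu⟩ := exists_aut h (le_LUof a.2 ha1' hg)
      have hτD : ∀ d ∈ D, τ d = d := by
        intro d hd
        apply Subtype.ext
        rw [← hτu, hgD d ⟨d, hd, rfl⟩]
        group
      have hτw : τ w = v := by
        apply Subtype.ext
        rw [← hτu, hgw]
        have : a * w = v := by rw [ha, mul_assoc, hUsq, mul_one]
        rw [← this]; rfl
      have hmem : τ * φ ∈ indA h := by
        apply ih
        have hlt : fixU φ < fixU (τ * φ) := by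
          refine lt_of_le_of_ne ?_ ?_
          · intro x hx
            show τ (φ x) = x
            rw [show φ x = x from hx]
            apply hτD
            rw [hD]; left; exact hx
          · intro he
            apply hvF
            rw [he]
            show τ (φ v) = v
            rw [← hw, hτw]
        have : Nat.card (fixU φ) < Nat.card (fixU (τ * φ)) := by
          by_contra hcon
          push Not at hcon
          exact hlt.ne (Subgroup.eq_of_le_of_card_ge hlt.le hcon)
        omega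
      have : φ = τ⁻¹ * (τ * φ) := by group
      rw [this]
      exact Subgroup.mul_mem _ (Subgroup.inv_mem _ hτ) hmem

theorem Sing.comm_mem {z : G} {U : Subgroup G} (h : Sing z U) : ∀ g ∈ LUof U, ∀ x ∈ QUof U,
    g * x * g⁻¹ * x⁻¹ ∈ U := by
  intro g hg x hx
  have hgen : ∀ u ∈ ((U : Set G) \ {1}), QQ u ≤
      (({g : G | g * x * g⁻¹ * x⁻¹ ∈ U ∧ g ∈ Subgroup.normalizer (U : Set G)}) : Set G) := by
    intro u hu g hg
    refine ⟨?_, h.normalizer hu.1 hu.2 hg⟩
    rcases (h.pack hu.1 hu.2).comm g hg x (mem_QUof.1 hx u hu.1 hu.2) with h' | h'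
    · rw [h']; exact U.one_mem
    · rw [h']; exact hu.1
  let S : Subgroup G :=
    { carrier := {g : G | g * x * g⁻¹ * x⁻¹ ∈ U ∧ g ∈ Subgroup.normalizer (U : Set G)}
      one_mem' := ⟨by simp, Subgroup.one_mem _⟩
      mul_mem' := by
        rintro a b ⟨ha1, ha2⟩ ⟨hb1, hb2⟩
        refine ⟨?_, Subgroup.mul_mem _ ha2 hb2⟩
        have : a * b * x * (a * b)⁻¹ * x⁻¹ = (a * (b * x * b⁻¹ * x⁻¹) * a⁻¹) * (a * x * a⁻¹ * x⁻¹) := by group
        rw [this]
        exact U.mul_mem ((Subgroup.mem_normalizer_iff.1 ha2 _).1 hb1) ha1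
      inv_mem' := by
        rintro a ⟨ha1, ha2⟩
        refine ⟨?_, Subgroup.inv_mem _ ha2⟩
        have : a⁻¹ * x * a⁻¹⁻¹ * x⁻¹ = a⁻¹ * (a * x * a⁻¹ * x⁻¹)⁻¹ * a⁻¹⁻¹ := by group
        rw [this]
        exact (Subgroup.mem_normalizer_iff.1 (Subgroup.inv_mem _ ha2) _).1 (U.inv_mem ha1) }
  have : LUof U ≤ S := iSup₂_le fun u hu => hgen u hu
  exact (this hg).1

theorem Sing.trans_coset {z : G} {U : Subgroup G} (h : Sing z U) : ∀ x ∈ QUof U, x ∉ U → ∀ u ∈ U,
    ∃ g ∈ LUof U ⊓ Subgroup.centralizer (U : Set G), g * x * g⁻¹ = x * u := by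
  intro x hx hxU u hu
  by_cases hu1 : u = 1
  · subst hu1
    exact ⟨1, Subgroup.one_mem _, by simp⟩
  · obtain ⟨g, hg, hgU, hgx⟩ := h.set.exists_act (h.conj u hu hu1) (D := U) (h.le hu hu1) hu
      (mem_QUof.1 hx u hu hu1) hxU
    refine ⟨g, ⟨le_LUof hu hu1 hg, Subgroup.mem_centralizer_iff.2 fun d hd => (hgU d hd).symm⟩, ?_⟩
    rw [hgx, (h.pack hu hu1).zc x (mem_QUof.1 hx u hu hu1)]

theorem Sing.inter_le {z : G} {U : Subgroup G} (h : Sing z U) {u v : G} (hu : u ∈ U) (hv : v ∈ U) (hu1 : u ≠ 1)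
    (hv1 : v ≠ 1) (huv : u ≠ v) {x : G} (hxu : x ∈ QQ u) (hxv : x ∈ QQ v) : x ∈ QQ (u * v) := by
  obtain ⟨g, hg, hgv⟩ := (h.pack hu hu1).exists_shift (h.le hu hu1 hv) hv1 (Ne.symm huv)
  have e1 : QQ (u * v) = (QQ v).map (MulAut.conj g).toMonoidHom := by
    rw [← hgv, QQ_conj]
  rw [e1, mem_map_conj]
  have hp := h.pack hu hu1
  rcases hp.comm g⁻¹ ((QQ u).inv_mem hg) x hxu with h' | h'
  · have : g⁻¹ * x * g = x := by
      rw [mul_inv_eq_one] at h'
      simpa using h'
    rw [this]; exact hxv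
  · have : g⁻¹ * x * g = u * x := by
      rw [mul_inv_eq_iff_eq_mul] at h'
      simpa using h'
    rw [this]
    exact (QQ v).mul_mem (h.le hv hv1 hu) hxv

theorem Sing.QU_gen {z : G} {U : Subgroup G} (h : Sing z U) {T : Set G} (hT : Subgroup.closure T = U)
    (hT1 : (1 : G) ∉ T) : QUof U = ⨅ t ∈ T, QQ t := by
  apply le_antisymm
  · apply le_iInf₂
    intro t ht
    have h1 : t ∈ U := by rw [← hT]; exact Subgroup.subset_closure ht
    have h2 : t ≠ 1 := by rintro rfl; exact hT1 ht
    exact iInf₂_le_of_le t ⟨h1, h2⟩ le_rfl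
  · intro x hx
    rw [mem_QUof]
    have hx' : ∀ t ∈ T, x ∈ QQ t := by
      intro t ht
      exact (Subgroup.mem_iInf.1 ((Subgroup.mem_iInf.1 hx) t)) ht
    have key : ∀ u ∈ Subgroup.closure T, u ∈ U ∧ (u ≠ 1 → x ∈ QQ u) := by
      intro u hu
      induction hu using Subgroup.closure_induction with
      | mem y hy => exact ⟨by rw [← hT]; exact Subgroup.subset_closure hy, fun _ => hx' y hy⟩
      | one => exact ⟨U.one_mem, fun h' => absurd rfl h'⟩
      | mul a b _ _ iha ihb =>
        refine ⟨U.mul_mem iha.1 ihb.1, fun hab => ?_⟩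
        by_cases ha1 : a = 1
        · subst ha1
          rw [one_mul] at hab ⊢
          exact ihb.2 hab
        by_cases hb1 : b = 1
        · subst hb1
          rw [mul_one] at hab ⊢
          exact iha.2 hab
        apply h.inter_le iha.1 ihb.1 ha1 hb1 _ (iha.2 ha1) (ihb.2 hb1)
        rintro rfl
        exact hab (h.inv _ iha.1)
      | inv a _ iha =>
        refine ⟨U.inv_mem iha.1, fun ha => ?_⟩
        have : a⁻¹ = a := inv_eq_of_mul_eq_one_left (h.inv a iha.1)
        rw [this] at ha ⊢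
        exact iha.2 ha
    intro u hu hu1
    rw [← hT] at hu
    exact (key u hu).2 hu1

end H94.LargeExt
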